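import Cfsg.Agent.H217.Odm.Eng2
import Cfsg.Agent.H217.Odm.Real
import Cfsg.Agent.UGT.End.MEleven
import Cfsg.Agent.SporadicA.M11Facts2
import Cfsg.Agent.PermutationGroups.PrimeDegree

/-!
# TEAM ODDM (S4785): the Mathieu group `M₁₁` (helper454)

A subgroup `R` as in `RO` has order 720 (numeric elimination), so its index is the prime 11; by Burnside's theorem `T` is
doubly transitive on `T ⧸ R`, so `R` has two orbits on `T ⧸ R`.
-/

set_option autoImplicit false

namespace Cfsg.Agent.H454.Odm

open Cfsg Subgroup Cfsg.Agent.OrdDiv Cfsg.Agent.H453.OddM Cfsg.Agent.H257.El Cfsg.Agent.H217.Odm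

universe u

/-- the stabiliser of a point of a doubly transitive action has exactly two orbits -/
theorem card_orb_two {T : Type*} [Group T] (R : Subgroup T) (hne : R ≠ ⊤)
    (h : ∀ a b c d : T ⧸ R, a ≠ b → c ≠ d → ∃ g : T, g • a = c ∧ g • b = d) :
    Nat.card (MulAction.orbitRel.Quotient R (T ⧸ R)) = 2 := by
  classical
  set ω : T ⧸ R := QuotientGroup.mk 1 with hω
  have hfix : ∀ g : T, g • ω = ω ↔ g ∈ R := by
    intro g
    rw [hω, fixed_iff]
    simp
  obtain ⟨ω', hω'⟩ : ∃ ω' : T ⧸ R, ω' ≠ ω := by
    by_contra hc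
    push Not at hc
    apply hne
    rw [eq_top_iff]
    intro g _
    rw [← hfix]
    exact hc _
  let f : MulAction.orbitRel.Quotient R (T ⧸ R) → Bool :=
    Quotient.lift (fun x : T ⧸ R => decide (x = ω)) (by
      intro a b hab
      obtain ⟨g, hg⟩ := MulAction.orbitRel_apply.1 hab
      have hg' : (g : T) • b = a := hg
      have hR := (hfix g).2 g.2
      congr 1
      apply propext
      constructor
      · intro ha
        rw [ha, ← hR] at hg'
        exact smul_left_cancel _ hg'
      · intro hb
        rw [← hg', hb]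
        exact hR)
  have hf : Function.Bijective f := by
    constructor
    · intro a b hab
      induction a using Quotient.inductionOn with
      | _ a =>
      induction b using Quotient.inductionOn with
      | _ b =>
      have h1 : decide (a = ω) = decide (b = ω) := hab
      apply Quotient.sound
      apply MulAction.orbitRel_apply.2
      by_cases ha : a = ω
      · have hb : b = ω := by simpa [ha] using h1
        rw [ha, hb]
        exact MulAction.mem_orbit_self _
      · have hb : b ≠ ω := by simpa [ha] using h1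
        obtain ⟨g, h2, h3⟩ := h ω b ω a (Ne.symm hb) (Ne.symm ha)
        exact ⟨⟨g, (hfix g).1 h2⟩, h3⟩
    · intro b
      cases b with
      | true => exact ⟨Quotient.mk _ ω, by simp [f]⟩
      | false => exact ⟨Quotient.mk _ ω', by simp [f, hω']⟩
  rw [Nat.card_congr (Equiv.ofBijective f hf)]
  simp

/-- a simple nonabelian group is doubly transitive on the cosets of a subgroup of prime index -/
theorem two_transitive {T : Type*} [Group T] [Finite T] [hs : IsSimpleGroup T] (hns : ¬ Group.IsSolvable T)
    (R : Subgroup T) (hp : R.index.Prime) :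
    ∀ a b c d : T ⧸ R, a ≠ b → c ≠ d → ∃ g : T, g • a = c ∧ g • b = d := by
  classical
  have : Fintype (T ⧸ R) := Fintype.ofFinite _
  have hα : (Fintype.card (T ⧸ R)).Prime := by
    rw [← Nat.card_eq_fintype_card]
    exact hp
  set F : T →* Equiv.Perm (T ⧸ R) := MulAction.toPermHom T (T ⧸ R) with hF
  have happ : ∀ (g : T) (x : T ⧸ R), F g x = g • x := fun g x => rfl
  have hinj : Function.Injective F := by
    rw [← MonoidHom.ker_eq_bot_iff]
    rcases hs.eq_bot_or_eq_top_of_normal F.ker inferInstance with h1 | h1
    · exact h1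
    · exfalso
      apply hp.one_lt.ne'
      rw [Subgroup.index_eq_one, eq_top_iff]
      intro g _
      have h2 : g ∈ F.ker := h1 ▸ mem_top g
      have h3 : g • (QuotientGroup.mk 1 : T ⧸ R) = QuotientGroup.mk 1 := by
        rw [← happ, MonoidHom.mem_ker.1 h2]
        rfl
      rw [fixed_iff] at h3
      simpa using h3
  have htr : MulAction.IsPretransitive F.range (T ⧸ R) := by
    constructor
    intro x y
    obtain ⟨g, hg⟩ := MulAction.exists_smul_eq T x y
    exact ⟨⟨F g, g, rfl⟩, hg⟩
  rcases Cfsg.Agent.PermutationGroups.PrimeDegree.isSolvable_or_two_transitive hα F.range with h1 | h1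
  · exfalso
    apply hns
    exact Group.isSolvable_of_isSolvable_injective (f := F.rangeRestrict) (fun a b hab => hinj (congrArg Subtype.val hab))
  · intro a b c d hab hcd
    obtain ⟨⟨_, g, rfl⟩, h2, h3⟩ := (MulAction.is_two_pretransitive_iff (G := F.range) (α := T ⧸ R)).1 h1 hab hcd
    exact ⟨g, h2, h3⟩

theorem left_m11 : left 7920 [(2, 4), (3, 2), (5, 1), (11, 1)] 5 [3] [(5, 4, true)] [] =
    [(some (.alt 6), 720), (some (.psl 2 9), 720)] := by decide +kernel

theorem row (tab : OrderTable.{u}) (known : Known.{u}) {T : Type u} [Group T] (h : Spor.IsoM11 T) : Row T := by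
  have hM : IsM11 T := Cfsg.Agent.UGT.End.MEleven.isM11 h
  have hn : Nat.card T = 7920 := hM.2
  have hs : IsSimpleGroup T := hM.1
  have hfin : Finite T := Nat.finite_of_card_ne_zero (by rw [hn]; norm_num)
  have hc : ∀ x : T, orderOf x = 5 → Nat.card (centralizer ({x} : Set T)) = 5 * 1 := fun x hx => by
    rw [mul_one]; exact Cfsg.Agent.SporadicA.M11Facts.card_centralizer_five hM hx
  have hN : ∀ x : T, orderOf x = 5 → Nat.card (normalizer ((zpowers x : Subgroup T) : Set T)) = 5 * (1 * 4) ∧
      (Even 4 → IsReal x) := fun x hx =>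
    norm_of_cent (r := 5) (n := 1584) (c := 1) (e := 4) (by norm_num) (by rw [hn]) (by norm_num) hx (hc x hx)
      (by norm_num) (by norm_num)
  have h5 : RealP T 5 := by
    have := Fact.mk (show Nat.Prime 5 by norm_num)
    obtain ⟨x, hx⟩ := exists_prime_orderOf_dvd_card' (G := T) 5 (by rw [hn]; norm_num)
    exact ⟨x, hx, (hN x hx).2 (by decide)⟩
  have h3 : RealP T 3 := by
    have := Fact.mk (show Nat.Prime 3 by norm_num)
    obtain ⟨t, ht⟩ := exists_prime_orderOf_dvd_card' (G := T) 3 (by rw [hn]; norm_num)
    have htp : IsPGroup 3 (zpowers t) := IsPGroup.of_card (n := 1) (by rw [Nat.card_zpowers, ht, pow_one])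
    obtain ⟨P, hP⟩ := htp.exists_le_sylow
    have hH : SporadicA.M11Three.Hyp T := SporadicA.M11Facts2.hyp hM
    obtain ⟨c, hcy⟩ := isConj_iff.1 (SporadicA.M11Three.isConj_inv' hM hH P t (hP (mem_zpowers t)))
    exact ⟨t, ht, c, hcy⟩
  intro R hR
  by_contra hne
  obtain ⟨O, hO, N, hT, g, hg, -, -⟩ := exists_left (n := 7920) (l := [(2, 4), (3, 2), (5, 1), (11, 1)]) (r := 5)
    (ss := [3]) (aux := [(5, 4, true)]) (dv := []) tab known hn (by norm_num) (hR.cov.dvd h5) (by
      intro s hs
      rw [List.mem_singleton] at hs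
      subst hs
      refine ⟨by norm_num, hR.cov.dvd h3, fun z hz => ?_⟩
      have hz3 : orderOf (z ^ 3) = 5 := by rw [orderOf_pow, hz]; norm_num
      have h1 := Subgroup.orderOf_dvd_natCard (centralizer ({z ^ 3} : Set T)) (x := z)
        (mem_centralizer_singleton_iff.2 (by rw [← pow_succ, ← pow_succ']))
      rw [hc _ hz3, hz] at h1
      norm_num at h1) (by
      intro x hx
      rw [List.mem_singleton] at hx
      subst hx
      exact Pt.of_real hR (by norm_num) (by norm_num) h5 (by norm_num) (fun x hx => (hN x hx).1) true)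
      (by simp) (by decide +kernel) hR.odd_index hne
  rw [left_m11] at hg
  have hcard : Nat.card R = 720 := by
    simp only [List.mem_cons, Prod.mk.injEq, List.not_mem_nil, or_false] at hg
    omega
  have hidx : R.index = 11 := by
    have h1 := R.card_mul_index
    rw [hcard, hn] at h1
    omega
  have hns : ¬ Group.IsSolvable T := by
    intro hsol
    have h1 : ∀ a b : T, a * b = b * a := by
      have h2 := IsSimpleGroup.comm_iff_isSolvable (G := T)
      exact h2.2 hsol
    let _ : CommGroup T := { (inferInstance : Group T) with mul_comm := h1 }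
    have h3 := IsSimpleGroup.prime_card (α := T)
    rw [hn] at h3
    norm_num at h3
  exact hR.not_even_orb R (by
    rw [card_orb_two R hne (two_transitive hns R (by rw [hidx]; norm_num))]
    decide)

end Cfsg.Agent.H454.Odm
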